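import Mathlib
import Cfsg.Agent.Lib.Helper70.S3701.Defs

/-!
# S3701 package SETUP (second seat): normal forms, orders, independence
-/

set_option autoImplicit false

namespace Cfsg.Agent.Lib.Helper67.S3701

open Cfsg.Agent.Lib.Helper70.S3701

universe u

section
variable {G : Type u} [Group G]

theorem inv_eq_sq_of_cube {x : G} (h : x ^ 3 = 1) : x⁻¹ = x ^ 2 :=
  inv_eq_of_mul_eq_one_right (by rw [← pow_succ']; exact h)

theorem inv_eq_self_of_sq {x : G} (h : x * x = 1) : x⁻¹ = x :=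
  inv_eq_of_mul_eq_one_right h

/-- product of two normal forms in three commuting elements -/
theorem abc_mul {a b c : G} (ab : a * b = b * a) (ac : a * c = c * a) (bc : b * c = c * b)
    (i j k i' j' k' : ℕ) :
    a ^ i * b ^ j * c ^ k * (a ^ i' * b ^ j' * c ^ k') =
      a ^ (i + i') * b ^ (j + j') * c ^ (k + k') := by
  have hab : Commute a b := ab
  have hac : Commute a c := ac
  have hbc : Commute b c := bc
  have h1 : c ^ k * a ^ i' = a ^ i' * c ^ k := ((hac.pow_pow i' k).symm).eq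
  have h2 : c ^ k * b ^ j' = b ^ j' * c ^ k := ((hbc.pow_pow j' k).symm).eq
  have h3 : b ^ j * a ^ i' = a ^ i' * b ^ j := ((hab.pow_pow i' j).symm).eq
  calc a ^ i * b ^ j * c ^ k * (a ^ i' * b ^ j' * c ^ k')
      = a ^ i * b ^ j * (c ^ k * a ^ i') * b ^ j' * c ^ k' := by simp only [mul_assoc]
    _ = a ^ i * (b ^ j * a ^ i') * (c ^ k * b ^ j') * c ^ k' := by rw [h1]; simp only [mul_assoc]
    _ = a ^ i * a ^ i' * (b ^ j * b ^ j') * (c ^ k * c ^ k') := by
        rw [h3, h2]; simp only [mul_assoc]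
    _ = a ^ (i + i') * b ^ (j + j') * c ^ (k + k') := by rw [pow_add, pow_add, pow_add]

/-- the elements of `closure {a, b, c}` -/
theorem mem_X {a b c : G} (a3 : a ^ 3 = 1) (b3 : b ^ 3 = 1) (c3 : c ^ 3 = 1)
    (ab : a * b = b * a) (ac : a * c = c * a) (bc : b * c = c * b) :
    ∀ x ∈ Subgroup.closure ({a, b, c} : Set G), ∃ i j k : ℕ, x = a ^ i * b ^ j * c ^ k := by
  intro x hx
  induction hx using Subgroup.closure_induction with
  | mem x hx =>
    rcases hx with rfl | rfl | rfl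
    · exact ⟨1, 0, 0, by simp⟩
    · exact ⟨0, 1, 0, by simp⟩
    · exact ⟨0, 0, 1, by simp⟩
  | one => exact ⟨0, 0, 0, by simp⟩
  | mul x y _ _ ihx ihy =>
    obtain ⟨i, j, k, rfl⟩ := ihx
    obtain ⟨i', j', k', rfl⟩ := ihy
    exact ⟨i + i', j + j', k + k', abc_mul ab ac bc i j k i' j' k'⟩
  | inv x _ ih =>
    obtain ⟨i, j, k, rfl⟩ := ih
    refine ⟨2 * i, 2 * j, 2 * k, ?_⟩
    apply inv_eq_of_mul_eq_one_right
    rw [abc_mul ab ac bc]
    have e1 : i + 2 * i = 3 * i := by ring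
    have e2 : j + 2 * j = 3 * j := by ring
    have e3 : k + 2 * k = 3 * k := by ring
    rw [e1, e2, e3, pow_mul, pow_mul, pow_mul, a3, b3, c3]
    simp

/-- the elements of `closure {u, v}` -/
theorem mem_V {u v : G} (u2 : u * u = 1) (v2 : v * v = 1) (uv : u * v = v * u) :
    ∀ y ∈ Subgroup.closure ({u, v} : Set G), ∃ e f : ℕ, y = u ^ e * v ^ f := by
  have huv : Commute u v := uv
  intro y hy
  induction hy using Subgroup.closure_induction with
  | mem x hx =>
    rcases hx with rfl | rfl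
    · exact ⟨1, 0, by simp⟩
    · exact ⟨0, 1, by simp⟩
  | one => exact ⟨0, 0, by simp⟩
  | mul x y _ _ ihx ihy =>
    obtain ⟨e, f, rfl⟩ := ihx
    obtain ⟨e', f', rfl⟩ := ihy
    refine ⟨e + e', f + f', ?_⟩
    have h1 : v ^ f * u ^ e' = u ^ e' * v ^ f := ((huv.pow_pow e' f).symm).eq
    calc u ^ e * v ^ f * (u ^ e' * v ^ f') = u ^ e * (v ^ f * u ^ e') * v ^ f' := by
          simp only [mul_assoc]
      _ = u ^ e * u ^ e' * (v ^ f * v ^ f') := by rw [h1]; simp only [mul_assoc]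
      _ = u ^ (e + e') * v ^ (f + f') := by rw [pow_add, pow_add]
  | inv x _ ih =>
    obtain ⟨e, f, rfl⟩ := ih
    refine ⟨e, f, ?_⟩
    rw [mul_inv_rev, ← inv_pow, ← inv_pow, inv_eq_self_of_sq u2, inv_eq_self_of_sq v2]
    exact ((huv.pow_pow e f).symm).eq

theorem pow_two_gen {u : G} (u2 : u * u = 1) (e : ℕ) : u ^ (2 * e) = 1 := by
  rw [pow_mul, pow_two, u2, one_pow]

theorem ne_one_of_inverts {u a : G} (h : u * a * u⁻¹ = a⁻¹) (a1 : a ≠ 1) (a3 : a ^ 3 = 1) :
    u ≠ 1 := by
  rintro rfl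
  apply a1
  have h1 : a = a⁻¹ := by simpa using h
  have h2 : a * a = 1 := by
    nth_rewrite 2 [h1]
    exact mul_inv_cancel a
  have h3 : a ^ 3 = a * a * a := by rw [pow_succ, pow_two]
  rw [h3, h2, one_mul] at a3
  exact a3

end

theorem pkgSetup : Cfsg.Agent.Lib.Helper70.S3701.PkgSetup.{u} := by
  intro G _ _ H T a b c u v hg hTH hT hN hC
  obtain ⟨haH, hbH, hcH, huH, hvH, a1, b1, c1, a3, b3, c3, ab, ac, bc, u2, v2, uv, ua, ub, uc,
    va, vb, vc, gen⟩ := hg
  have huv : Commute u v := uv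
  have huinv : u⁻¹ = u := inv_eq_self_of_sq u2
  have hvinv : v⁻¹ = v := inv_eq_self_of_sq v2
  set X : Subgroup G := Subgroup.closure ({a, b, c} : Set G) with hX
  set V : Subgroup G := Subgroup.closure ({u, v} : Set G) with hV
  have haX : a ∈ X := Subgroup.subset_closure (by simp)
  have hbX : b ∈ X := Subgroup.subset_closure (by simp)
  have hcX : c ∈ X := Subgroup.subset_closure (by simp)
  have huV : u ∈ V := Subgroup.subset_closure (by simp)
  have hvV : v ∈ V := Subgroup.subset_closure (by simp)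
  have hXform := mem_X a3 b3 c3 ab ac bc
  have hVform := mem_V u2 v2 uv
  have hXH : X ≤ H := by
    rw [hX, Subgroup.closure_le]
    rintro x (rfl | rfl | rfl)
    · exact haH
    · exact hbH
    · exact hcH
  have hVH : V ≤ H := by
    rw [hV, Subgroup.closure_le]
    rintro x (rfl | rfl)
    · exact huH
    · exact hvH
  -- conjugation by u, v preserves X
  have hconj : ∀ g : G, g * a * g⁻¹ ∈ X → g * b * g⁻¹ ∈ X → g * c * g⁻¹ ∈ X →
      ∀ x ∈ X, g * x * g⁻¹ ∈ X := by
    intro g h1 h2 h3 x hx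
    induction hx using Subgroup.closure_induction with
    | mem x hx =>
      rcases hx with rfl | rfl | rfl
      · exact h1
      · exact h2
      · exact h3
    | one => simp
    | mul x y _ _ ihx ihy =>
      have : g * (x * y) * g⁻¹ = (g * x * g⁻¹) * (g * y * g⁻¹) := by group
      rw [this]
      exact X.mul_mem ihx ihy
    | inv x _ ih =>
      have : g * x⁻¹ * g⁻¹ = (g * x * g⁻¹)⁻¹ := by group
      rw [this]
      exact X.inv_mem ih
  have huX : ∀ x ∈ X, u * x * u⁻¹ ∈ X :=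
    hconj u (by rw [ua]; exact X.inv_mem haX) (by rw [ub]; exact X.inv_mem hbX)
      (by rw [uc]; exact hcX)
  have hvX : ∀ x ∈ X, v * x * v⁻¹ ∈ X :=
    hconj v (by rw [va]; exact X.inv_mem haX) (by rw [vb]; exact hbX)
      (by rw [vc]; exact X.inv_mem hcX)
  have hVN : V ≤ Subgroup.normalizer (X : Set G) := by
    rw [hV, Subgroup.closure_le]
    rintro y (rfl | rfl)
    · rw [SetLike.mem_coe, Subgroup.mem_normalizer_iff]
      intro x
      refine ⟨huX x, fun h => ?_⟩
      have h2 := huX _ h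
      have h3 : y * (y * x * y⁻¹) * y⁻¹ = x := by
        rw [huinv]
        calc y * (y * x * y) * y = (y * y) * x * (y * y) := by simp only [mul_assoc]
          _ = x := by rw [u2]; simp
      rwa [h3] at h2
    · rw [SetLike.mem_coe, Subgroup.mem_normalizer_iff]
      intro x
      refine ⟨hvX x, fun h => ?_⟩
      have h2 := hvX _ h
      have h3 : y * (y * x * y⁻¹) * y⁻¹ = x := by
        rw [hvinv]
        calc y * (y * x * y) * y = (y * y) * x * (y * y) := by simp only [mul_assoc]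
          _ = x := by rw [v2]; simp
      rwa [h3] at h2
  -- normal form of the elements of H
  have hHform : ∀ h ∈ H, ∃ x ∈ X, ∃ y ∈ V, h = x * y := by
    intro h hh
    have h1 := gen h hh
    have h2 : ({a, b, c, u, v} : Set G) = {a, b, c} ∪ {u, v} := by
      ext z
      simp only [Set.mem_insert_iff, Set.mem_singleton_iff, Set.mem_union]
      tauto
    rw [h2, Subgroup.closure_union] at h1
    have h3 : h ∈ ((X ⊔ V : Subgroup G) : Set G) := h1
    rw [Subgroup.coe_mul_of_right_le_normalizer_left X V hVN, Set.mem_mul] at h3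
    obtain ⟨x, hx, y, hy, rfl⟩ := h3
    exact ⟨x, hx, y, hy, rfl⟩
  have hVsq : ∀ y ∈ V, y * y = 1 := by
    intro y hy
    obtain ⟨e, f, rfl⟩ := hVform y hy
    have h1 : v ^ f * u ^ e = u ^ e * v ^ f := ((huv.pow_pow e f).symm).eq
    calc u ^ e * v ^ f * (u ^ e * v ^ f) = u ^ e * (v ^ f * u ^ e) * v ^ f := by
          simp only [mul_assoc]
      _ = u ^ e * u ^ e * (v ^ f * v ^ f) := by rw [h1]; simp only [mul_assoc]
      _ = 1 := by
          rw [← pow_add, ← pow_add, ← two_mul, ← two_mul, pow_two_gen u2, pow_two_gen v2, one_mul]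
  have hsqX : ∀ h ∈ H, h * h ∈ X := by
    intro h hh
    obtain ⟨x, hx, y, hy, rfl⟩ := hHform h hh
    have hyn := hVN hy
    rw [Subgroup.mem_normalizer_iff] at hyn
    have h1 : x * y * (x * y) = x * (y * x * y⁻¹) * (y * y) := by group
    rw [h1, hVsq y hy, mul_one]
    exact X.mul_mem hx ((hyn x).mp hx)
  -- T ≤ X
  have hTpow : ∀ t ∈ T, t ^ 27 = 1 := by
    intro t ht
    have h1 : (⟨t, ht⟩ : T) ^ Nat.card T = 1 := pow_card_eq_one'
    rw [hT] at h1
    have h2 := congrArg (Subtype.val) h1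
    simpa using h2
  have hTX : T ≤ X := by
    intro t ht
    have h1 := hsqX t (hTH ht)
    have h2 : t = (t * t) ^ 14 := by
      have h3 : (t * t) ^ 14 = t ^ 27 * t := by
        rw [← pow_two, ← pow_mul, ← pow_succ]
      rw [h3, hTpow t ht, one_mul]
    rw [h2]
    exact X.pow_mem h1 14
  -- |X| ≤ 27
  let φ : Fin 3 × Fin 3 × Fin 3 → X := fun p =>
    ⟨a ^ p.1.val * b ^ p.2.1.val * c ^ p.2.2.val,
      X.mul_mem (X.mul_mem (X.pow_mem haX _) (X.pow_mem hbX _)) (X.pow_mem hcX _)⟩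
  have hφsurj : Function.Surjective φ := by
    rintro ⟨x, hx⟩
    obtain ⟨i, j, k, rfl⟩ := hXform x hx
    refine ⟨(⟨i % 3, Nat.mod_lt _ (by norm_num)⟩, ⟨j % 3, Nat.mod_lt _ (by norm_num)⟩,
      ⟨k % 3, Nat.mod_lt _ (by norm_num)⟩), ?_⟩
    apply Subtype.ext
    show a ^ (i % 3) * b ^ (j % 3) * c ^ (k % 3) = a ^ i * b ^ j * c ^ k
    rw [← pow_eq_pow_mod i a3, ← pow_eq_pow_mod j b3, ← pow_eq_pow_mod k c3]
  have hcard27 : Nat.card (Fin 3 × Fin 3 × Fin 3) = 27 := by
    simp
  have hXle : Nat.card X ≤ 27 := by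
    rw [← hcard27]
    exact Nat.card_le_card_of_surjective φ hφsurj
  have hTXeq : T = X := Subgroup.eq_of_le_of_card_ge hTX (by rw [hT]; exact hXle)
  have hXcard : Nat.card X = 27 := by rw [← hTXeq]; exact hT
  have hφinj : Function.Injective φ := by
    have hbij : Function.Bijective φ := by
      rw [Nat.bijective_iff_surjective_and_card]
      exact ⟨hφsurj, by rw [hcard27, hXcard]⟩
    exact hbij.1
  have hindep : ∀ i j k : ℕ, a ^ i * b ^ j * c ^ k = 1 → 3 ∣ i ∧ 3 ∣ j ∧ 3 ∣ k := by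
    intro i j k h
    have h1 : φ (⟨i % 3, Nat.mod_lt _ (by norm_num)⟩, ⟨j % 3, Nat.mod_lt _ (by norm_num)⟩,
        ⟨k % 3, Nat.mod_lt _ (by norm_num)⟩) = φ (⟨0, by norm_num⟩, ⟨0, by norm_num⟩,
        ⟨0, by norm_num⟩) := by
      apply Subtype.ext
      show a ^ (i % 3) * b ^ (j % 3) * c ^ (k % 3) = a ^ 0 * b ^ 0 * c ^ 0
      rw [← pow_eq_pow_mod i a3, ← pow_eq_pow_mod j b3, ← pow_eq_pow_mod k c3, h]
      simp
    have h2 := hφinj h1
    simp only [Prod.mk.injEq, Fin.mk.injEq] at h2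
    exact ⟨Nat.dvd_of_mod_eq_zero h2.1, Nat.dvd_of_mod_eq_zero h2.2.1,
      Nat.dvd_of_mod_eq_zero h2.2.2⟩
  -- the involutions
  have hu1 : u ≠ 1 := ne_one_of_inverts ua a1 a3
  have hv1 : v ≠ 1 := ne_one_of_inverts va a1 a3
  have huvb : (u * v) * b * (u * v)⁻¹ = b⁻¹ := by
    have : (u * v) * b * (u * v)⁻¹ = u * (v * b * v⁻¹) * u⁻¹ := by group
    rw [this, vb, ub]
  have huv1 : u * v ≠ 1 := ne_one_of_inverts huvb b1 b3
  have huva : (u * v) * a * (u * v)⁻¹ = a := by
    have : (u * v) * a * (u * v)⁻¹ = u * (v * a * v⁻¹) * u⁻¹ := by group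
    rw [this, va]
    have h2 : u * a⁻¹ * u⁻¹ = (u * a * u⁻¹)⁻¹ := by group
    rw [h2, ua, inv_inv]
  have huvc : (u * v) * c * (u * v)⁻¹ = c⁻¹ := by
    have : (u * v) * c * (u * v)⁻¹ = u * (v * c * v⁻¹) * u⁻¹ := by group
    rw [this, vc]
    have h2 : u * c⁻¹ * u⁻¹ = (u * c * u⁻¹)⁻¹ := by group
    rw [h2, uc]
  have huv2 : (u * v) * (u * v) = 1 := by
    calc u * v * (u * v) = u * (v * u) * v := by simp only [mul_assoc]
      _ = u * (u * v) * v := by rw [← uv]
      _ = (u * u) * (v * v) := by simp only [mul_assoc]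
      _ = 1 := by rw [u2, v2, one_mul]
  -- T ∩ V = 1
  have hTV : ∀ y ∈ V, y ∈ T → y = 1 := by
    intro y hy hyT
    have h1 := hTpow y hyT
    have h2 : y ^ 27 = (y * y) ^ 13 * y := by
      rw [← pow_two, ← pow_mul, ← pow_succ]
    rw [h2, hVsq y hy, one_pow, one_mul] at h1
    exact h1
  -- the bijection T × Fin 2 × Fin 2 → H
  let ψ : T × Fin 2 × Fin 2 → H := fun p =>
    ⟨(p.1 : G) * u ^ p.2.1.val * v ^ p.2.2.val,
      H.mul_mem (H.mul_mem (hTH p.1.2) (H.pow_mem huH _)) (H.pow_mem hvH _)⟩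
  have hψsurj : Function.Surjective ψ := by
    rintro ⟨h, hh⟩
    obtain ⟨x, hx, y, hy, rfl⟩ := hHform h hh
    obtain ⟨e, f, rfl⟩ := hVform y hy
    refine ⟨(⟨x, hTXeq ▸ hx⟩, ⟨e % 2, Nat.mod_lt _ (by norm_num)⟩,
      ⟨f % 2, Nat.mod_lt _ (by norm_num)⟩), ?_⟩
    apply Subtype.ext
    show x * u ^ (e % 2) * v ^ (f % 2) = x * (u ^ e * v ^ f)
    have hu2' : u ^ 2 = 1 := by rw [pow_two]; exact u2
    have hv2' : v ^ 2 = 1 := by rw [pow_two]; exact v2
    rw [← pow_eq_pow_mod e hu2', ← pow_eq_pow_mod f hv2', mul_assoc]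
  have hψinj : Function.Injective ψ := by
    rintro ⟨⟨t, ht⟩, e, f⟩ ⟨⟨t', ht'⟩, e', f'⟩ h
    have h0 : t * u ^ e.val * v ^ f.val = t' * u ^ e'.val * v ^ f'.val :=
      congrArg Subtype.val h
    -- y := u^(e+e') v^(f+f') ∈ T
    have hkey : u ^ (e.val + e'.val) * v ^ (f.val + f'.val) = t⁻¹ * t' := by
      have h1 : v ^ f.val * u ^ e'.val = u ^ e'.val * v ^ f.val :=
        ((huv.pow_pow e'.val f.val).symm).eq
      have hue : u ^ e'.val * u ^ e'.val = 1 := by
        rw [← pow_add, ← two_mul, pow_two_gen u2]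
      have hvf : v ^ f'.val * v ^ f'.val = 1 := by
        rw [← pow_add, ← two_mul, pow_two_gen v2]
      have h2 : u ^ e.val * v ^ f.val = t⁻¹ * t' * (u ^ e'.val * v ^ f'.val) := by
        have : u ^ e.val * v ^ f.val = t⁻¹ * (t * u ^ e.val * v ^ f.val) := by group
        rw [this, h0]
        group
      have h3 : v ^ f'.val * u ^ e'.val = u ^ e'.val * v ^ f'.val :=
        ((huv.pow_pow e'.val f'.val).symm).eq
      calc u ^ (e.val + e'.val) * v ^ (f.val + f'.val)
          = u ^ e.val * u ^ e'.val * (v ^ f.val * v ^ f'.val) := by rw [pow_add, pow_add]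
        _ = u ^ e.val * (v ^ f.val * u ^ e'.val) * v ^ f'.val := by
            rw [h1]; simp only [mul_assoc]
        _ = (u ^ e.val * v ^ f.val) * (u ^ e'.val * v ^ f'.val) := by simp only [mul_assoc]
        _ = t⁻¹ * t' * (u ^ e'.val * v ^ f'.val) * (u ^ e'.val * v ^ f'.val) := by rw [h2]
        _ = t⁻¹ * t' * (u ^ e'.val * (v ^ f'.val * u ^ e'.val) * v ^ f'.val) := by
            simp only [mul_assoc]
        _ = t⁻¹ * t' * ((u ^ e'.val * u ^ e'.val) * (v ^ f'.val * v ^ f'.val)) := by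
            rw [h3]; simp only [mul_assoc]
        _ = t⁻¹ * t' := by rw [hue, hvf, one_mul, mul_one]
    have hyV : u ^ (e.val + e'.val) * v ^ (f.val + f'.val) ∈ V :=
      V.mul_mem (V.pow_mem huV _) (V.pow_mem hvV _)
    have hyT : u ^ (e.val + e'.val) * v ^ (f.val + f'.val) ∈ T := by
      rw [hkey]
      exact T.mul_mem (T.inv_mem ht) ht'
    have hy1 := hTV _ hyV hyT
    have htt : t = t' := by
      rw [hy1] at hkey
      have := hkey.symm
      rw [inv_mul_eq_one] at this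
      exact this
    have hee : e = e' ∧ f = f' := by
      have he := e.isLt
      have he' := e'.isLt
      have hf := f.isLt
      have hf' := f'.isLt
      have hu2' : u ^ 2 = 1 := by rw [pow_two]; exact u2
      have hv2' : v ^ 2 = 1 := by rw [pow_two]; exact v2
      have hcases : ∀ m : ℕ, m < 2 → m = 0 ∨ m = 1 := by intro m hm; omega
      rcases hcases e.val he with h1 | h1 <;> rcases hcases e'.val he' with h2 | h2 <;>
        rcases hcases f.val hf with h3 | h3 <;> rcases hcases f'.val hf' with h4 | h4 <;>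
        rw [h1, h2, h3, h4] at hy1 <;>
        first
          | exact ⟨Fin.ext (h1.trans h2.symm), Fin.ext (h3.trans h4.symm)⟩
          | (exfalso; simp only [pow_zero, pow_one, add_zero, zero_add, one_mul, mul_one,
              Nat.reduceAdd, hu2', hv2'] at hy1; first | exact hu1 hy1 | exact hv1 hy1 | exact huv1 hy1)
    obtain ⟨h1, h2⟩ := hee
    subst htt
    subst h1
    subst h2
    rfl
  have hcardH : Nat.card H = 108 := by
    have h1 : Nat.card (T × Fin 2 × Fin 2) = Nat.card H :=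
      Nat.card_congr (Equiv.ofBijective ψ ⟨hψinj, hψsurj⟩)
    rw [← h1, Nat.card_prod, Nat.card_prod, hT]
    simp
  refine
    { haT := hTXeq ▸ haX
      hbT := hTXeq ▸ hbX
      hcT := hTXeq ▸ hcX
      hwH := H.mul_mem huH hvH
      hw'H := hvH
      hTH := hTH
      a3 := a3
      b3 := b3
      c3 := c3
      ab := ab
      ac := ac
      bc := bc
      w2 := huv2
      w'2 := v2
      ww' := ?_
      wa := huva
      wb := huvb
      wc := huvc
      w'a := va
      w'b := vb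
      w'c := vc
      T_eq := ?_
      H_eq := ?_
      cardT := hT
      cardH := hcardH
      indep := hindep
      hN := hN
      hC := hC }
  · calc u * v * v = v * u * v := by rw [← uv]
      _ = v * (u * v) := by simp only [mul_assoc]
  · intro t ht
    exact hXform t (hTX ht)
  · intro h hh
    obtain ⟨x, hx, y, hy, rfl⟩ := hHform h hh
    obtain ⟨e, f, rfl⟩ := hVform y hy
    refine ⟨x, hTXeq ▸ hx, e, e + f, ?_⟩
    have h1 : (u * v) ^ e = u ^ e * v ^ e := huv.mul_pow e
    have h2 : v ^ e * v ^ (e + f) = v ^ f := by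
      rw [← pow_add]
      have : e + (e + f) = 2 * e + f := by ring
      rw [this, pow_add, pow_two_gen v2, one_mul]
    rw [h1]
    calc x * (u ^ e * v ^ f) = x * (u ^ e * (v ^ e * v ^ (e + f))) := by rw [h2]
      _ = x * (u ^ e * v ^ e) * v ^ (e + f) := by simp only [mul_assoc]

end Cfsg.Agent.Lib.Helper67.S3701
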